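import Cfsg.Agent.ZStar.Main
import Cfsg.Agent.Transfer.Focal
import Cfsg.Agent.Transfer.Fusion
import Mathlib.GroupTheory.SpecificGroups.Dihedral
import Mathlib.GroupTheory.Frattini

/-!
# Involution centraliser equal to a Sylow 2-subgroup with Frattini subgroup of order two
-/

namespace CfsgLib.SmallFrattiniCent

variable {L : Type*} [Group L] [Finite L] [IsSimpleGroup L]

/-- The setup. -/
structure Setup (z : L) (R : Sylow 2 L) : Prop where
  nab : ¬ IsMulCommutative L
  ne_one : z ≠ 1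
  sq : z * z = 1
  cent : ∀ g : L, g ∈ (R : Subgroup L) ↔ g * z = z * g
  sqmem : ∀ a ∈ (R : Subgroup L), a * a = 1 ∨ a * a = z
  exsq : ∃ a ∈ (R : Subgroup L), a * a = z
  norm : ∀ g ∈ Subgroup.normalizer ((R : Subgroup L) : Set L), g ∈ (R : Subgroup L)

omit [IsSimpleGroup L] in
theorem sq_mem_frattini {P : Type*} [Group P] [Finite P] (hP : IsPGroup 2 P) (a : P) :
    a * a ∈ frattini P := by
  haveI : Fact (Nat.Prime 2) := ⟨Nat.prime_two⟩
  simp only [frattini, Order.radical, Subgroup.mem_iInf]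
  intro K hK
  haveI : Group.IsNilpotent P := hP.isNilpotent
  haveI : K.Normal := Subgroup.NormalizerCondition.normal_of_coatom K (Group.normalizerCondition_of_isNilpotent (G := P)) hK
  obtain ⟨m, hm⟩ := hP.index K
  have h2 : K.index = 2 := by
    by_contra hne
    have hm1 : 1 < m := by
      rcases m with _ | _ | m
      · exact absurd (Subgroup.index_eq_one.1 (by simpa using hm)) hK.1
      · exact absurd (by simpa using hm) hne
      · omega
    have hdvd : 2 ∣ Nat.card (P ⧸ K) := by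
      rw [show Nat.card (P ⧸ K) = K.index from rfl, hm]; exact dvd_pow_self 2 (by omega)
    obtain ⟨q, hq⟩ := exists_prime_orderOf_dvd_card' 2 hdvd
    have hlt : K < (Subgroup.zpowers q).comap (QuotientGroup.mk' K) := by
      constructor
      · intro k hk
        show (k : P ⧸ K) ∈ Subgroup.zpowers q
        rw [(QuotientGroup.eq_one_iff k).2 hk]; exact one_mem _
      · intro h
        obtain ⟨p, rfl⟩ := QuotientGroup.mk'_surjective K q
        have : p ∈ K := h (show (p : P ⧸ K) ∈ _ from Subgroup.mem_zpowers _)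
        rw [show QuotientGroup.mk' K p = 1 from (QuotientGroup.eq_one_iff p).2 this, orderOf_one] at hq
        omega
    have htop := hK.2 _ hlt
    have := congrArg Subgroup.index htop
    rw [Subgroup.index_comap_of_surjective _ (QuotientGroup.mk'_surjective K), Subgroup.index_top,
      Subgroup.index_eq_one] at this
    have hc : Nat.card (P ⧸ K) = 2 := by
      rw [← Subgroup.card_top (G := P ⧸ K), ← this, Nat.card_zpowers, hq]
    rw [show Nat.card (P ⧸ K) = K.index from rfl] at hc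
    exact hne hc
  exact (Subgroup.mul_self_mem_of_index_two h2 a)

omit [Finite L] [IsSimpleGroup L] in
/-- Conjugation by an element of the normaliser, as an automorphism. -/
def conjAut (H : Subgroup L) (g : L) (hg : g ∈ Subgroup.normalizer (H : Set L)) : H ≃* H where
  toFun x := ⟨g * x * g⁻¹, (Subgroup.mem_normalizer_iff.1 hg x).1 x.2⟩
  invFun x := ⟨g⁻¹ * x * g, by
    simpa using (Subgroup.mem_normalizer_iff.1 (inv_mem hg) x).1 x.2⟩
  left_inv x := Subtype.ext (by group)
  right_inv x := Subtype.ext (by group)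
  map_mul' x y := Subtype.ext (by simp [Subgroup.coe_mul, mul_assoc])

omit [Finite L] [IsSimpleGroup L] in
theorem frattini_eq_bot_of_sq {P : Type*} [Group P] [Finite P] [IsMulCommutative P]
    (hexp : ∀ a : P, a * a = 1) : frattini P = ⊥ := by
  haveI : Fact (Nat.Prime 2) := ⟨Nat.prime_two⟩
  letI : CommGroup P := { (inferInstance : Group P) with mul_comm := fun a b => IsMulCommutative.is_comm.comm a b }
  letI : Module (ZMod 2) (Additive P) :=
    AddCommGroup.zmodModule (n := 2) fun x => by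
      rw [two_nsmul]; exact congrArg Additive.ofMul (hexp (Additive.toMul x))
  rw [eq_bot_iff]
  intro v hv
  by_contra hv1
  have hne : Additive.ofMul v ≠ 0 := fun h => hv1 (Subgroup.mem_bot.2 (congrArg Additive.toMul h))
  obtain ⟨f, hf⟩ := Module.Projective.exists_dual_ne_zero (ZMod 2) hne
  let φ : P →* Multiplicative (ZMod 2) := f.toAddMonoidHom.toMultiplicativeRight
  have hφ : φ v ≠ 1 := fun h => hf (congrArg Multiplicative.toAdd h)
  have hcard : Nat.card (Multiplicative (ZMod 2)) = 2 := by simp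
  have hsurj : Function.Surjective φ := by
    intro x
    obtain ⟨a, ha, hau⟩ := (Nat.card_eq_two_iff' (1 : Multiplicative (ZMod 2))).mp hcard
    by_cases hx : x = 1
    · exact ⟨1, by rw [map_one, hx]⟩
    · exact ⟨v, (hau _ hφ).trans (hau _ hx).symm⟩
  have hi : φ.ker.index = 2 := by
    rw [Subgroup.index_ker, MonoidHom.range_eq_top.2 hsurj, Subgroup.card_top, hcard]
  have hmax : IsCoatom φ.ker := by
    refine ⟨fun h => hφ (MonoidHom.mem_ker.1 (h ▸ Subgroup.mem_top v)), fun K hK => ?_⟩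
    have := Subgroup.index_dvd_of_le hK.le
    rw [hi] at this
    rcases (Nat.dvd_prime Nat.prime_two).1 this with h | h
    · exact Subgroup.index_eq_one.1 h
    · exfalso
      refine hK.ne (Subgroup.eq_of_le_of_card_ge hK.le ?_)
      have h1 := φ.ker.card_mul_index
      have h2 := K.card_mul_index
      rw [hi] at h1; rw [h] at h2; omega
  exact hφ (MonoidHom.mem_ker.1 (frattini_le_coatom hmax hv))

namespace Setup

variable {z : L} {R : Sylow 2 L}

theorem z_mem (hS : Setup z R) : z ∈ (R : Subgroup L) := (hS.cent z).2 rfl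

theorem center_bot (hS : Setup z R) : Subgroup.center L = ⊥ := by
  rcases (Subgroup.center L).normal_of_characteristic.eq_bot_or_eq_top with h | h
  · exact h
  · exact absurd ⟨⟨fun a b => (Subgroup.mem_center_iff.1 (h ▸ Subgroup.mem_top b) a)⟩⟩ hS.nab

theorem comm_cases (hS : Setup z R) {a b : L} (ha : a ∈ (R : Subgroup L)) (hb : b ∈ (R : Subgroup L)) :
    a * b = b * a ∨ a * b = z * (b * a) := by
  have hzc : ∀ c ∈ (R : Subgroup L), c * z = z * c := fun c hc => (hS.cent c).1 hc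
  have h1 := hS.sqmem a ha
  have h2 := hS.sqmem b hb
  have h3 := hS.sqmem (a * b) (mul_mem ha hb)
  have key : ∀ s1 s2 s : L, a * a = s1 → b * b = s2 → a * b * (a * b) = s →
      b * a = a⁻¹ * s * b⁻¹ := by
    intro s1 s2 s _ _ h; rw [← h]; group
  have hk := key _ _ _ rfl rfl rfl
  have hai : a⁻¹ = a ∨ a⁻¹ = a * z := by
    rcases h1 with h | h
    · exact Or.inl (inv_eq_of_mul_eq_one_right h)
    · exact Or.inr (inv_eq_of_mul_eq_one_right (by rw [← mul_assoc, h, hS.sq]))
  have hbi : b⁻¹ = b ∨ b⁻¹ = b * z := by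
    rcases h2 with h | h
    · exact Or.inl (inv_eq_of_mul_eq_one_right h)
    · exact Or.inr (inv_eq_of_mul_eq_one_right (by rw [← mul_assoc, h, hS.sq]))
  have hzab : z * (a * b) = a * b * z := ((hzc _ (mul_mem ha hb))).symm
  have hz2 : ∀ c : L, z * (z * c) = c := fun c => by rw [← mul_assoc, hS.sq, one_mul]
  have : b * a = a * b ∨ b * a = z * (a * b) := by
    rw [hk]
    rcases h3 with h | h <;> rw [h] <;> rcases hai with h' | h' <;> rw [h'] <;>
      rcases hbi with h'' | h'' <;> rw [h'']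
    all_goals (try simp only [mul_one, mul_assoc, hzc b hb, hz2, hS.sq])
    all_goals (try simp only [← mul_assoc, hzc a ha])
    all_goals (try simp only [mul_assoc, hz2, hS.sq, mul_one])
    all_goals tauto
  rcases this with h | h
  · exact Or.inl h.symm
  · exact Or.inr (by rw [h, hz2])

theorem burnside (hS : Setup z R) {u v g : L} (hu : ∀ r ∈ (R : Subgroup L), r * u = u * r)
    (huR : u ∈ (R : Subgroup L))
    (hv : ∀ r ∈ (R : Subgroup L), r * v = v * r) (hg : g * u * g⁻¹ = v) : u = v := by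
  have hset : ∀ w : L, (∀ r ∈ (R : Subgroup L), r * w = w * r) →
      (R : Subgroup L) ≤ Subgroup.normalizer ({w} : Set L) := by
    intro w hw r hr
    rw [Subgroup.mem_set_normalizer_iff]
    intro x
    simp only [Set.mem_singleton_iff]
    constructor
    · rintro rfl; rw [hw r hr, mul_inv_cancel_right]
    · intro h
      have : r * x * r⁻¹ = r * w * r⁻¹ := by rw [h, hw r hr, mul_inv_cancel_right]
      exact mul_left_cancel (mul_right_cancel this)
  obtain ⟨n, hn, hn'⟩ := CfsgLib.Transfer.burnside_fusion_image R (A := {u}) (g := g) (hset u hu)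
    (by
      have : (fun a => g * a * g⁻¹) '' ({u} : Set L) = {v} := by simp [hg]
      rw [this]
      exact hset v hv)
  rw [Set.image_singleton, Set.image_singleton, Set.singleton_eq_singleton_iff, hg,
    hu n (hS.norm n hn), mul_inv_cancel_right] at hn'
  exact hn'

theorem moves (hS : Setup z R) {u : L} (hu : u * u = 1) (hu1 : u ≠ 1) (huR : u ∈ (R : Subgroup L)) :
    ∃ g : L, g * u * g⁻¹ ∈ (R : Subgroup L) ∧ g * u * g⁻¹ ≠ u := by
  by_contra hcon
  push_neg at hcon
  have ho : orderOf u = 2 := by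
    refine orderOf_eq_prime ?_ hu1
    rw [pow_two, hu]
  have hiso := CfsgLib.ZStar.isolated_of_sylow R ho huR hcon
  have hO : Cfsg.pPrimeCore 2 L = ⊥ := by
    rcases (Cfsg.pPrimeCore_normal 2 L).eq_bot_or_eq_top with h | h
    · exact h
    · exfalso
      exact CfsgLib.ZStar.not_mem_pPrimeCore_of_orderOf_two ho (h ▸ Subgroup.mem_top u)
  have hc : u ∈ Subgroup.center L := by
    rw [Subgroup.mem_center_iff]
    intro g
    have := CfsgLib.ZStar.zstar hiso g
    rw [hO, Subgroup.mem_bot] at this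
    exact (mul_inv_eq_iff_eq_mul.1 (mul_inv_eq_one.1 this)).symm
  rw [hS.center_bot, Subgroup.mem_bot] at hc
  exact hu1 hc

end Setup

/-- An elementary abelian subgroup of index two of `R`. -/
structure Good (R : Sylow 2 L) (W : Subgroup L) : Prop where
  le : W ≤ (R : Subgroup L)
  prop : ∃ a ∈ (R : Subgroup L), a ∉ W
  two : ∀ a ∈ (R : Subgroup L), ∀ b ∈ (R : Subgroup L), a ∉ W → b ∉ W → a * b ∈ W
  exp : ∀ w ∈ W, w * w = 1

/-- `x` commutes with `R`. -/
def Cen (R : Sylow 2 L) (x : L) : Prop := x ∈ (R : Subgroup L) ∧ ∀ r ∈ (R : Subgroup L), r * x = x * r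

namespace Good

variable {z : L} {R : Sylow 2 L} {W : Subgroup L}

theorem commW (hW : Good R W) {u v : L} (hu : u ∈ W) (hv : v ∈ W) : u * v = v * u := by
  have := hW.exp _ (mul_mem hu hv)
  have e1 := inv_eq_of_mul_eq_one_right (hW.exp u hu)
  have e2 := inv_eq_of_mul_eq_one_right (hW.exp v hv)
  have e3 := inv_eq_of_mul_eq_one_right this
  rw [← e3, mul_inv_rev, e1, e2]

theorem split (hW : Good R W) {a : L} (ha : a ∈ (R : Subgroup L)) (haW : a ∉ W) {b : L}
    (hb : b ∈ (R : Subgroup L)) : b ∈ W ∨ b * a ∈ W := by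
  by_cases h : b ∈ W
  · exact Or.inl h
  · exact Or.inr (hW.two b hb a ha h haW)

theorem cen_of_comm (hW : Good R W) {a : L} (ha : a ∈ (R : Subgroup L)) (haW : a ∉ W) {w : L}
    (hw : w ∈ W) (hc : a * w = w * a) : Cen R w := by
  refine ⟨hW.le hw, fun b hb => ?_⟩
  rcases hW.split ha haW hb with h | h
  · exact hW.commW h hw
  · have h1 := hW.commW h hw
    calc b * w = b * (a * w * a⁻¹) := by rw [hc, mul_inv_cancel_right]
      _ = b * a * w * a⁻¹ := by group
      _ = w * (b * a) * a⁻¹ := by rw [h1]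
      _ = w * b := by group

theorem z_mem (hW : Good R W) (hS : Setup z R) : z ∈ W := by
  obtain ⟨a, ha, haz⟩ := hS.exsq
  by_cases haW : a ∈ W
  · exact haz ▸ mul_mem haW haW
  · exact haz ▸ hW.two a ha a ha haW haW

theorem cen_mem (hW : Good R W) (hna : ∃ r ∈ (R : Subgroup L), ¬ Cen R r) {c : L} (hc : Cen R c) :
    c ∈ W := by
  by_contra hcW
  obtain ⟨r, hr, hrn⟩ := hna
  apply hrn
  refine ⟨hr, fun b hb => ?_⟩
  have hW' : ∀ w ∈ W, Cen R w := fun w hw => hW.cen_of_comm hc.1 hcW hw (hc.2 w (hW.le hw)).symm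
  rcases hW.split hc.1 hcW hr with h | h
  · exact (hW' r h).2 b hb
  · have h1 := (hW' _ h).2 b hb
    have h2 := hc.2 b hb
    calc b * r = (b * (r * c)) * c⁻¹ := by group
      _ = (r * c * b) * c⁻¹ := by rw [h1]
      _ = (r * (b * c)) * c⁻¹ := by rw [mul_assoc r c b, ← h2]
      _ = r * b := by group

theorem conj_eq (hW : Good R W) (hS : Setup z R) {a w : L} (ha : a ∈ (R : Subgroup L)) (haW : a ∉ W)
    (hw : w ∈ W) (hwn : ¬ Cen R w) : a * w * a⁻¹ = z * w := by
  rcases hS.comm_cases ha (hW.le hw) with h | h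
  · exact absurd (hW.cen_of_comm ha haW hw h) hwn
  · rw [h]; group

theorem mul_cen (hW : Good R W) (hS : Setup z R) {u v : L} (hu : u ∈ W) (hv : v ∈ W)
    (hun : ¬ Cen R u) (hvn : ¬ Cen R v) : Cen R (u * v) := by
  obtain ⟨a, ha, haW⟩ := hW.prop
  refine hW.cen_of_comm ha haW (mul_mem hu hv) ?_
  have h1 := hW.conj_eq hS ha haW hu hun
  have h2 := hW.conj_eq hS ha haW hv hvn
  have hzu : u * z = z * u := (hS.cent u).1 (hW.le hu)
  have : a * (u * v) * a⁻¹ = u * v := by
    calc a * (u * v) * a⁻¹ = (a * u * a⁻¹) * (a * v * a⁻¹) := by group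
      _ = z * u * (z * v) := by rw [h1, h2]
      _ = z * (u * z) * v := by group
      _ = u * v := by rw [hzu, ← mul_assoc z z u, hS.sq, one_mul]
  exact mul_inv_eq_iff_eq_mul.1 this

theorem orbit_z (hW : Good R W) (hS : Setup z R) {n h : L} (hn : n ∈ Subgroup.normalizer (W : Set L))
    (hh : h ∈ Subgroup.normalizer (W : Set L)) (hnz : n * z * n⁻¹ ≠ z) (hhz : h * z * h⁻¹ ≠ z)
    (hne : h * z * h⁻¹ ≠ n * z * n⁻¹) : n * z * n⁻¹ * (h * z * h⁻¹) = z := by
  have hzW := hW.z_mem hS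
  have hx : n * z * n⁻¹ ∈ W := (Subgroup.mem_normalizer_iff.1 hn z).1 hzW
  have hx' : h * z * h⁻¹ ∈ W := (Subgroup.mem_normalizer_iff.1 hh z).1 hzW
  have hzc : ∀ r ∈ (R : Subgroup L), r * z = z * r := fun r hr => (hS.cent r).1 hr
  have nc : ∀ g : L, g * z * g⁻¹ ≠ z → ¬ Cen R (g * z * g⁻¹) := fun g hg hc =>
    hg (hS.burnside hzc hS.z_mem hc.2 rfl).symm
  have hcen := hW.mul_cen hS hx hx' (nc n hnz) (nc h hhz)
  -- pull back along `n`
  have hmn : n⁻¹ * h ∈ Subgroup.normalizer (W : Set L) := mul_mem (inv_mem hn) hh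
  have hm : n⁻¹ * h * z * (n⁻¹ * h)⁻¹ ≠ z := by
    intro he; apply hne
    calc h * z * h⁻¹ = n * (n⁻¹ * h * z * (n⁻¹ * h)⁻¹) * n⁻¹ := by group
      _ = _ := by rw [he]
  have hmW : n⁻¹ * h * z * (n⁻¹ * h)⁻¹ ∈ W := (Subgroup.mem_normalizer_iff.1 hmn z).1 hzW
  obtain ⟨a, ha, haW⟩ := hW.prop
  have e := hW.conj_eq hS ha haW hmW (nc _ hm)
  have : (n * a * (n⁻¹ * h)) * z * (n * a * (n⁻¹ * h))⁻¹ = n * z * n⁻¹ * (h * z * h⁻¹) := by
    calc _ = n * (a * (n⁻¹ * h * z * (n⁻¹ * h)⁻¹) * a⁻¹) * n⁻¹ := by group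
      _ = _ := by rw [e]; group
  exact (hS.burnside hzc hS.z_mem hcen.2 this).symm

/-- Central elements fixed by the normaliser of `W`. -/
def Fix (R : Sylow 2 L) (W : Subgroup L) (f : L) : Prop :=
  Cen R f ∧ ∀ h ∈ Subgroup.normalizer (W : Set L), h * f * h⁻¹ = f

theorem fix_of_conj_cen (hW : Good R W) (hS : Setup z R) {n f : L}
    (hn : n ∈ Subgroup.normalizer (W : Set L)) (hnz : n * z * n⁻¹ ≠ z) (hf : Cen R f)
    (hnf : Cen R (n * f * n⁻¹)) : Fix R W f := by
  have hfix : n * f * n⁻¹ = f := (hS.burnside hf.2 hf.1 hnf.2 rfl).symm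
  refine ⟨hf, fun h hh => ?_⟩
  obtain ⟨a, ha, haW⟩ := hW.prop
  have hR : ∀ g : L, g * z * g⁻¹ = z → g * f * g⁻¹ = f := fun g hg => by
    have := hf.2 g ((hS.cent g).2 (mul_inv_eq_iff_eq_mul.1 hg))
    rw [this, mul_inv_cancel_right]
  by_cases h1 : h * z * h⁻¹ = z
  · exact hR h h1
  have hconja : a * f * a⁻¹ = f := by rw [hf.2 a ha, mul_inv_cancel_right]
  by_cases h2 : h * z * h⁻¹ = n * z * n⁻¹
  · have := hR (n⁻¹ * h) (by
      calc n⁻¹ * h * z * (n⁻¹ * h)⁻¹ = n⁻¹ * (h * z * h⁻¹) * n := by group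
        _ = z := by rw [h2]; group)
    calc h * f * h⁻¹ = n * (n⁻¹ * h * f * (n⁻¹ * h)⁻¹) * n⁻¹ := by group
      _ = f := by rw [this, hfix]
  have h3 := hW.orbit_z hS hn hh hnz h1 h2
  have hzc : ∀ r ∈ (R : Subgroup L), r * z = z * r := fun r hr => (hS.cent r).1 hr
  have hx : n * z * n⁻¹ ∈ W := (Subgroup.mem_normalizer_iff.1 hn z).1 (hW.z_mem hS)
  have e := hW.conj_eq hS ha haW hx (fun hc => hnz (hS.burnside hzc hS.z_mem hc.2 rfl).symm)
  have hh' : h * z * h⁻¹ = (a * n) * z * (a * n)⁻¹ := by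
    calc h * z * h⁻¹ = (n * z * n⁻¹)⁻¹ * z := eq_inv_mul_of_mul_eq h3
      _ = n * z * n⁻¹ * z := by rw [inv_eq_of_mul_eq_one_right (hW.exp _ hx)]
      _ = z * (n * z * n⁻¹) := hW.commW hx (hW.z_mem hS)
      _ = a * (n * z * n⁻¹) * a⁻¹ := e.symm
      _ = _ := by group
  have := hR ((a * n)⁻¹ * h) (by
    calc (a * n)⁻¹ * h * z * ((a * n)⁻¹ * h)⁻¹ = (a * n)⁻¹ * (h * z * h⁻¹) * (a * n) := by group
      _ = z := by rw [hh']; group)
  calc h * f * h⁻¹ = (a * n) * ((a * n)⁻¹ * h * f * ((a * n)⁻¹ * h)⁻¹) * (a * n)⁻¹ := by group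
    _ = a * (n * f * n⁻¹) * a⁻¹ := by rw [this]; group
    _ = f := by rw [hfix, hconja]

theorem fix_mul (hW : Good R W) (hS : Setup z R) (hna : ∃ r ∈ (R : Subgroup L), ¬ Cen R r) {a b : L}
    (ha : Cen R a) (hb : Cen R b)
    (han : ¬ Fix R W a) (hbn : ¬ Fix R W b) : Fix R W (a * b) := by
  have hab : Cen R (a * b) := ⟨mul_mem ha.1 hb.1, fun r hr => by
    rw [← mul_assoc, ha.2 r hr, mul_assoc, hb.2 r hr, mul_assoc]⟩
  by_cases hex : ∃ n ∈ Subgroup.normalizer (W : Set L), n * z * n⁻¹ ≠ z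
  · obtain ⟨n, hn, hnz⟩ := hex
    have ca : ¬ Cen R (n * a * n⁻¹) := fun h => han (hW.fix_of_conj_cen hS hn hnz ha h)
    have cb : ¬ Cen R (n * b * n⁻¹) := fun h => hbn (hW.fix_of_conj_cen hS hn hnz hb h)
    have := hW.mul_cen hS ((Subgroup.mem_normalizer_iff.1 hn a).1 (hW.cen_mem hna ha))
      ((Subgroup.mem_normalizer_iff.1 hn b).1 (hW.cen_mem hna hb)) ca cb
    refine hW.fix_of_conj_cen hS hn hnz hab ?_
    rwa [show n * (a * b) * n⁻¹ = n * a * n⁻¹ * (n * b * n⁻¹) from by group]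
  · push_neg at hex
    exfalso
    refine han ⟨ha, fun h hh => ?_⟩
    rw [ha.2 h ((hS.cent h).2 (mul_inv_eq_iff_eq_mul.1 (hex h hh))), mul_inv_cancel_right]

end Good

variable {z : L} {R : Sylow 2 L}

theorem Setup.conj_good (hS : Setup z R) {f y : L} (hf : Cen R f) (hy : y ∈ (R : Subgroup L))
    (hyy : y * y = 1) (hyf : y ≠ f) {g : L} (hg : g * y * g⁻¹ = f) :
    ∃ W : Subgroup L, Good R W ∧ y ∈ W ∧ ¬ Cen R y ∧
      ∃ h ∈ Subgroup.normalizer (W : Set L), h * y * h⁻¹ = f := by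
  haveI : Fact (Nat.Prime 2) := ⟨Nat.prime_two⟩
  have hyn : ¬ Cen R y := fun hc => hyf (hS.burnside hc.2 hy hf.2 hg)
  set W : Subgroup L := (R : Subgroup L) ⊓ Subgroup.centralizer ({y} : Set L) with hWdef
  have memW : ∀ w : L, w ∈ W ↔ w ∈ (R : Subgroup L) ∧ w * y = y * w := fun w => by
    rw [hWdef, Subgroup.mem_inf, Subgroup.mem_centralizer_iff]
    simp [eq_comm]
  -- conjugate `W` into `R`
  let C := Subgroup.centralizer ({f} : Set L)
  have hRC : (R : Subgroup L) ≤ C := fun r hr => by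
    rw [Subgroup.mem_centralizer_iff]; simpa [eq_comm] using hf.2 r hr
  have hWC : W.map (MulAut.conj g).toMonoidHom ≤ C := by
    rintro _ ⟨w, hw, rfl⟩
    rw [Subgroup.mem_centralizer_iff]
    intro x hx
    rw [Set.mem_singleton_iff.1 hx, ← hg]
    simp only [MulEquiv.coe_toMonoidHom, MulAut.conj_apply]
    calc g * y * g⁻¹ * (g * w * g⁻¹) = g * (y * w) * g⁻¹ := by group
      _ = g * (w * y) * g⁻¹ := by rw [((memW w).1 hw).2]
      _ = _ := by group
  have hWp : IsPGroup 2 (W.map (MulAut.conj g).toMonoidHom) :=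
    (R.2.to_le (inf_le_left : W ≤ (R : Subgroup L))).map _
  obtain ⟨Q, hQ⟩ := IsPGroup.exists_le_sylow
    (hWp.of_equiv (Subgroup.subgroupOfEquivOfLe hWC).symm)
  obtain ⟨c, hc⟩ := MulAction.exists_smul_eq C Q (R.subtype hRC)
  have hh : ∀ w ∈ W, (c : L) * g * w * ((c : L) * g)⁻¹ ∈ (R : Subgroup L) := by
    intro w hw
    have h1 : g * w * g⁻¹ ∈ C := hWC ⟨w, hw, rfl⟩
    have h2 : (⟨g * w * g⁻¹, h1⟩ : C) ∈ (Q : Subgroup C) := hQ ⟨w, hw, rfl⟩
    have h3 : c * ⟨g * w * g⁻¹, h1⟩ * c⁻¹ ∈ ((c • Q : Sylow 2 C) : Subgroup C) := by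
      rw [Sylow.coe_subgroup_smul]
      exact Subgroup.smul_mem_pointwise_smul _ (MulAut.conj c) _ h2
    rw [hc] at h3
    have h4 : (c : L) * (g * w * g⁻¹) * (c : L)⁻¹ ∈ (R : Subgroup L) := h3
    convert h4 using 1
    group
  set h := (c : L) * g with hdef
  have hhy : h * y * h⁻¹ = f := by
    have := Subgroup.mem_centralizer_iff.1 c.2 f rfl
    calc h * y * h⁻¹ = (c : L) * (g * y * g⁻¹) * (c : L)⁻¹ := by rw [hdef]; group
      _ = f := by rw [hg, ← this, mul_inv_cancel_right]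
  have hzy : z ∈ W := (memW z).2 ⟨hS.z_mem, ((hS.cent y).1 hy).symm⟩
  have hexp : ∀ w ∈ W, w * w = 1 := by
    intro w hw
    rcases hS.sqmem w ((memW w).1 hw).1 with h1 | h1
    · exact h1
    exfalso
    have : h * z * h⁻¹ = z := by
      rcases hS.sqmem _ (hh w hw) with h2 | h2
      · exfalso
        apply hS.ne_one
        have : h * z * h⁻¹ = 1 := by rw [← h2, ← h1]; group
        simpa using this
      · calc h * z * h⁻¹ = h * w * h⁻¹ * (h * w * h⁻¹) := by rw [← h1]; group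
          _ = z := h2
    have hR := (hS.cent h).2 (mul_inv_eq_iff_eq_mul.1 this)
    apply hyf
    calc y = h⁻¹ * f * h := by rw [← hhy]; group
      _ = f := by rw [hf.2 h⁻¹ (inv_mem hR), mul_assoc, inv_mul_cancel, mul_one]
  have hgood : Good R W := by
    refine ⟨inf_le_left, ?_, ?_, hexp⟩
    · by_contra hcon
      push_neg at hcon
      exact hyn ⟨hy, fun r hr => ((memW r).1 (hcon r hr)).2⟩
    · intro a ha b hb hna hnb
      refine (memW _).2 ⟨mul_mem ha hb, ?_⟩
      rcases hS.comm_cases ha hy with h1 | h1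
      · exact absurd ((memW a).2 ⟨ha, h1⟩) hna
      rcases hS.comm_cases hb hy with h2 | h2
      · exact absurd ((memW b).2 ⟨hb, h2⟩) hnb
      calc a * b * y = a * (z * (y * b)) := by rw [mul_assoc, h2]
        _ = (a * z) * (y * b) := by group
        _ = z * (a * y) * b := by rw [(hS.cent a).1 ha]; group
        _ = y * (a * b) := by rw [h1, ← mul_assoc z z, hS.sq, one_mul, mul_assoc]
  -- the image is another good subgroup; it equals `W`
  let W2 := W.map (MulAut.conj h).toMonoidHom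
  have hW2 : W2 ≤ (R : Subgroup L) := by rintro _ ⟨w, hw, rfl⟩; exact hh w hw
  refine ⟨W, hgood, (memW y).2 ⟨hy, rfl⟩, hyn, h, ?_, hhy⟩
  have hWnR : (R : Subgroup L) ≤ Subgroup.normalizer (W : Set L) := by
    intro r hr
    rw [Subgroup.mem_normalizer_iff]
    have key : ∀ r ∈ (R : Subgroup L), ∀ w ∈ W, r * w * r⁻¹ ∈ W := by
      intro r hr w hw
      rcases hS.comm_cases hr ((memW w).1 hw).1 with h1 | h1
      · rw [h1, mul_inv_cancel_right]; exact hw
      · have : r * w * r⁻¹ = z * w := by rw [h1]; group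
        rw [this]; exact mul_mem hzy hw
    intro w
    refine ⟨key r hr w, fun h1 => ?_⟩
    have := key r⁻¹ (inv_mem hr) _ h1
    simpa [mul_assoc] using this
  have hW2nR : (R : Subgroup L) ≤ Subgroup.normalizer (W2 : Set L) := by
    have hz2 : z ∈ W2 := by
      by_contra hzn
      -- two disjoint from `z`: then squares are trivial
      obtain ⟨a, ha, haz⟩ := hS.exsq
      apply hzn
      have hidx : W2.relIndex (R : Subgroup L) = 2 := by
        have hcard : Nat.card W2 = Nat.card W :=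
          Subgroup.card_map_of_injective (MulAut.conj h).injective
        have h1 := Subgroup.relIndex_mul_relIndex (⊥ : Subgroup L) W2 R bot_le hW2
        have h2 := Subgroup.relIndex_mul_relIndex (⊥ : Subgroup L) W R bot_le hgood.le
        rw [Subgroup.relIndex_bot_left, Subgroup.relIndex_bot_left] at h1 h2
        have h3 : W.relIndex (R : Subgroup L) = 2 := by
          obtain ⟨a, ha, haW⟩ := hgood.prop
          refine Subgroup.index_eq_two_iff'.2 ⟨⟨a, ha⟩, fun b => ?_⟩ |> fun x => x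
          simp only [Subgroup.mem_subgroupOf, Subgroup.coe_mul]
          by_cases hb : (b : L) ∈ W
          · exact Or.inr ⟨hb, fun hc => haW ((Subgroup.mul_mem_cancel_right _ hb).1 hc)⟩
          · exact Or.inl ⟨hgood.two a ha _ b.2 haW hb, hb⟩
        rw [hcard, ← h2, h3] at h1
        exact Nat.eq_of_mul_eq_mul_left Nat.card_pos h1
      have := Subgroup.mul_self_mem_of_index_two (H := W2.subgroupOf R) hidx ⟨a, ha⟩
      rw [Subgroup.mem_subgroupOf, Subgroup.coe_mul] at this
      exact haz ▸ this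
    intro r hr
    rw [Subgroup.mem_normalizer_iff]
    have key : ∀ r ∈ (R : Subgroup L), ∀ w ∈ W2, r * w * r⁻¹ ∈ W2 := by
      intro r hr w hw
      rcases hS.comm_cases hr (hW2 hw) with h1 | h1
      · rw [h1, mul_inv_cancel_right]; exact hw
      · have : r * w * r⁻¹ = z * w := by rw [h1]; group
        rw [this]; exact mul_mem hz2 hw
    intro w
    refine ⟨key r hr w, fun h1 => ?_⟩
    have := key r⁻¹ (inv_mem hr) _ h1
    simpa [mul_assoc] using this
  obtain ⟨n, hn, he⟩ := CfsgLib.Transfer.burnside_fusion_subgroup R (A := W) (g := h) hWnR hW2nR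
  have hnW := hWnR (hS.norm n hn)
  refine (Subgroup.mem_normalizer_iff_map_conj_eq).2 ?_
  exact he.symm.trans (Subgroup.mem_normalizer_iff_map_conj_eq.1 hnW)

end CfsgLib.SmallFrattiniCent
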